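import Cfsg.Agent.H851.Rl.PDefs
import Cfsg.Agent.H873.Tv

/-!
# S3691, PSL-8: a group fixing a point and inducing `SL` on the quotient contains all transvections with this centre
(and then the stabiliser of the vector), or none

`pt_cases`
-/

set_option autoImplicit false

namespace Cfsg.Agent.H261.Rl

open Cfsg Cfsg.Geo Matrix Cfsg.Agent.H873 Cfsg.Agent.H851.Rl
open scoped MatrixGroups

section

variable {n : ℕ} {F : Type} [Field F]

/-- an element of `SL` acting trivially modulo `⟨v⟩` -/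
theorem exists_tv {g : GL (Fin n) F} (hg : g ∈ specialLinear (Fin n) F) {v : Fin n → F}
    (h : ∀ w : Fin n → F, ∃ c : F, (g : Matrix (Fin n) (Fin n) F) *ᵥ w = w + c • v) :
    ∃ f : Fin n → F, f ⬝ᵥ v = 0 ∧ (g : Matrix (Fin n) (Fin n) F) = 1 + vecMulVec v f := by
  choose c hc using h
  have h1 : (g : Matrix (Fin n) (Fin n) F) = 1 + vecMulVec v (fun j => c (Pi.single j 1)) := by
    ext i j
    have h2 := congrFun (hc (Pi.single j 1)) i
    rw [mulVec_single_one] at h2
    rw [Matrix.add_apply, vecMulVec_apply, Matrix.one_apply]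
    simp only [Matrix.col_apply, Pi.add_apply, Pi.smul_apply, smul_eq_mul, Pi.single_apply] at h2
    rw [h2, mul_comm (v i)]
  refine ⟨_, ?_, h1⟩
  rw [mem_specialLinear_iff, h1, vecMulVec_eq Unit, det_one_add_replicateCol_mul_replicateRow] at hg
  exact add_eq_left.1 hg

theorem HasTv.neg_right {M : Subgroup (GL (Fin n) F)} {a φ : Fin n → F} (h : HasTv M a φ) : HasTv M a (-φ) := by
  have h1 := h.neg_left
  rw [← neg_one_smul F a, hasTv_smul_comm, neg_one_smul] at h1
  exact h1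

theorem exists_dual {f μ : Fin n → F} (h : ∀ c : F, f ≠ c • μ) : ∃ u : Fin n → F, μ ⬝ᵥ u = 0 ∧ f ⬝ᵥ u = -1 := by
  -- a vector killed by `μ` and not by `f`
  obtain ⟨u, h1, h2⟩ : ∃ u : Fin n → F, μ ⬝ᵥ u = 0 ∧ f ⬝ᵥ u ≠ 0 := by
    by_contra hcon
    push Not at hcon
    by_cases hμ : μ = 0
    · have hf : f ≠ 0 := by
        have := h 0
        rwa [zero_smul] at this
      obtain ⟨i, hi⟩ := Function.ne_iff.1 hf
      have h3 := hcon (Pi.single i 1) (by rw [hμ, zero_dotProduct])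
      rw [dotProduct_single, mul_one] at h3
      exact hi h3
    · obtain ⟨i, hi⟩ := Function.ne_iff.1 hμ
      rw [Pi.zero_apply] at hi
      apply h (f i / μ i)
      ext j
      have h3 := hcon (Pi.single j 1 - (μ j / μ i) • Pi.single i 1) (by
        rw [dotProduct_sub, dotProduct_smul, dotProduct_single, dotProduct_single, mul_one, mul_one, smul_eq_mul,
          div_mul_cancel₀ _ hi, sub_self])
      rw [dotProduct_sub, dotProduct_smul, dotProduct_single, dotProduct_single, mul_one, mul_one, smul_eq_mul,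
        sub_eq_zero] at h3
      rw [h3, Pi.smul_apply, smul_eq_mul]
      ring
  refine ⟨(-(f ⬝ᵥ u)⁻¹) • u, ?_, ?_⟩
  · rw [dotProduct_smul, h1, smul_zero]
  · rw [dotProduct_smul, smul_eq_mul, neg_mul, inv_mul_cancel₀ h2]

theorem exists_indep (hn : 3 ≤ n) (v μ : Fin n → F) : ∃ μ' : Fin n → F, μ' ⬝ᵥ v = 0 ∧ ∀ c : F, μ' ≠ c • μ := by
  by_contra hcon
  push Not at hcon
  let L : (Fin n → F) →ₗ[F] F :=
    { toFun := fun μ => μ ⬝ᵥ v
      map_add' := fun a b => add_dotProduct _ _ _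
      map_smul' := fun c a => smul_dotProduct _ _ _ }
  have h1 : LinearMap.ker L ≤ Submodule.span F {μ} := by
    intro μ' hμ'
    obtain ⟨c, hc⟩ := hcon μ' hμ'
    rw [Submodule.mem_span_singleton]
    exact ⟨c, hc.symm⟩
  have h2 := Submodule.finrank_mono h1
  have h3 := LinearMap.finrank_range_add_finrank_ker L
  have h4 : Module.finrank F (Submodule.span F {μ}) ≤ 1 := by
    have := finrank_span_le_card (R := F) ({μ} : Set (Fin n → F))
    simpa using this
  have h5 : Module.finrank F (LinearMap.range L) ≤ 1 := by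
    have := Submodule.finrank_le (LinearMap.range L)
    rwa [Module.finrank_self] at this
  rw [Module.finrank_fintype_fun_eq_card, Fintype.card_fin] at h3
  omega

variable {R : Subgroup (GL (Fin n) F)} {v : Fin n → F}

/-- an element of `VStab v` is congruent to an element of `R` -/
theorem exists_top (h : Pt R v) {x : GL (Fin n) F} (hx : x ∈ VStab v) :
    ∃ y ∈ R, ∃ g : GL (Fin n) F, ∃ f : Fin n → F, f ⬝ᵥ v = 0 ∧ (g : Matrix (Fin n) (Fin n) F) = 1 + vecMulVec v f ∧
      y = x * g := by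
  obtain ⟨y, hy, hyw⟩ := h.top x hx
  have hxi : ((x⁻¹ : GL (Fin n) F) : Matrix (Fin n) (Fin n) F) *ᵥ v = v := ((VStab v).inv_mem hx).2
  obtain ⟨f, hf, hfg⟩ := exists_tv (g := x⁻¹ * y) (v := v) (Subgroup.mul_mem _ (Subgroup.inv_mem _ hx.1) (h.le hy))
    (fun w => by
      obtain ⟨c, hc⟩ := hyw w
      refine ⟨c, ?_⟩
      rw [Units.val_mul, ← mulVec_mulVec, hc, mulVec_add, mulVec_smul, hxi, mulVec_mulVec, ← Units.val_mul,
        inv_mul_cancel, Units.val_one, one_mulVec])
  exact ⟨y, hy, x⁻¹ * y, f, hf, hfg, by rw [mul_inv_cancel_left]⟩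

/-- the functionals are invariant under `VStab v` -/
theorem conj_inv (h : Pt R v) {φ : Fin n → F} (hφ : HasTv R v φ) {x : GL (Fin n) F} (hx : x ∈ VStab v) :
    HasTv R v (φ ᵥ* ((x⁻¹ : GL (Fin n) F) : Matrix (Fin n) (Fin n) F)) := by
  obtain ⟨y, hy, g, f, hf, hg, rfl⟩ := exists_top h hx
  have h1 := hφ.conj hy
  have h2 : ((x * g : GL (Fin n) F) : Matrix (Fin n) (Fin n) F) *ᵥ v = v := by
    rw [Units.val_mul, ← mulVec_mulVec, hg, one_add_mulVec, hf, zero_smul, add_zero, hx.2]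
  have h3 : φ ᵥ* (g : Matrix (Fin n) (Fin n) F) = φ := by
    rw [hg, vecMul_add, vecMul_one, vecMul_vecMulVec, hφ.1, zero_smul, add_zero]
  have h4 : φ ᵥ* ((g⁻¹ : GL (Fin n) F) : Matrix (Fin n) (Fin n) F) = φ := by
    conv_lhs => rw [← h3]
    rw [vecMul_vecMul, ← Units.val_mul, mul_inv_cancel, Units.val_one, vecMul_one]
  rwa [h2, _root_.mul_inv_rev, Units.val_mul, ← vecMul_vecMul, h4] at h1

/-- **PSL-8** -/
theorem pt_cases (hn : 3 ≤ n) (h : Pt R v) : VStab v ≤ R ∨ NoU R v := by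
  by_cases hU : NoU R v
  · exact Or.inr hU
  left
  unfold NoU at hU
  push Not at hU
  obtain ⟨x₀, hx₀, hw₀, hx₁⟩ := hU
  obtain ⟨f, hf, hfx⟩ := exists_tv (h.le hx₀) hw₀
  have hf0 : f ≠ 0 := by
    rintro rfl
    apply hx₁
    apply Units.ext
    rw [hfx, vecMulVec_zero, add_zero, Units.val_one]
  have hTf : HasTv R v f := ⟨hf, x₀, hx₀, hfx⟩
  -- the first case
  have case1 : ∀ μ : Fin n → F, μ ⬝ᵥ v = 0 → (∀ c : F, f ≠ c • μ) → HasTv R v μ := by
    intro μ hμ hc
    obtain ⟨u, hu1, hu2⟩ := exists_dual hc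
    have hx : tv u μ hu1 ∈ VStab v := ⟨tv_mem_specialLinear u μ hu1, by
      rw [tv_mulVec, hμ, zero_smul, add_zero]⟩
    have h1 := conj_inv h hTf hx
    have h2 : f ᵥ* (((tv u μ hu1)⁻¹ : GL (Fin n) F) : Matrix (Fin n) (Fin n) F) = f + μ := by
      change f ᵥ* (1 - vecMulVec u μ) = f + μ
      rw [vecMul_sub, vecMul_one, vecMul_vecMulVec, hu2, neg_one_smul, sub_neg_eq_add]
    rw [h2] at h1
    have h3 := h1.add_right (HasTv.neg_right hTf)
    have h4 : f + μ + -f = μ := by abel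
    rwa [h4] at h3
  have all : ∀ μ : Fin n → F, μ ⬝ᵥ v = 0 → HasTv R v μ := by
    intro μ hμ
    by_cases hc : ∀ c : F, f ≠ c • μ
    · exact case1 μ hμ hc
    push Not at hc
    obtain ⟨c, hc⟩ := hc
    obtain ⟨μ', hμ', hind⟩ := exists_indep hn v μ
    have h1 : ∀ d : F, f ≠ d • μ' := by
      intro d hd
      have hd0 : d ≠ 0 := by
        rintro rfl
        rw [zero_smul] at hd
        exact hf0 hd
      apply hind (d⁻¹ * c)
      rw [mul_smul, ← hc, hd, smul_smul, inv_mul_cancel₀ hd0, one_smul]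
    have h2 : ∀ d : F, f ≠ d • (μ + μ') := by
      intro d hd
      have hd0 : d ≠ 0 := by
        rintro rfl
        rw [zero_smul] at hd
        exact hf0 hd
      apply hind (d⁻¹ * c - 1)
      rw [sub_smul, mul_smul, ← hc, hd, smul_smul, inv_mul_cancel₀ hd0, one_smul, one_smul]
      abel
    have h3 := case1 μ' hμ' h1
    have h4 := case1 (μ + μ') (by rw [add_dotProduct, hμ, hμ', add_zero]) h2
    have h5 := h4.add_right (HasTv.neg_right h3)
    have h6 : μ + μ' + -μ' = μ := by abel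
    rwa [h6] at h5
  intro x hx
  obtain ⟨y, hy, g, φ, hφ, hg, hyx⟩ := exists_top h hx
  obtain ⟨_, g', hg', he⟩ := all φ hφ
  have hgg : g' = g := Units.ext (by rw [he, hg])
  rw [hgg] at hg'
  have hxy : x = y * g⁻¹ := by rw [hyx, mul_inv_cancel_right]
  rw [hxy]
  exact R.mul_mem hy (R.inv_mem hg')

end

end Cfsg.Agent.H261.Rl
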